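import Mathlib

/-!
# SMALLU (S3435, helper28): congruences, numerical inequalities
-/

set_option autoImplicit false

namespace Cfsg.Agent.R2.Spec.SmallU

theorem cycle {x N r e : ℕ} (he : 0 < e) (h : x ^ (r + e) % N = x ^ r % N) (k : ℕ) :
    x ^ (r + k) % N = x ^ (r + k % e) % N := by
  induction k using Nat.strong_induction_on with
  | _ k ih =>
    rcases Nat.lt_or_ge k e with hk | hk
    · rw [Nat.mod_eq_of_lt hk]
    · obtain ⟨j, rfl⟩ : ∃ j, k = j + e := ⟨k - e, by omega⟩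
      rw [Nat.add_mod_right, ← ih j (by omega)]
      have h1 : x ^ (r + (j + e)) = x ^ (r + e) * x ^ j := by rw [← pow_add]; congr 1; omega
      have h2 : x ^ (r + j) = x ^ r * x ^ j := pow_add _ _ _
      rw [h1, h2, Nat.mul_mod, h, ← Nat.mul_mod]

/-- the check: no solution of `c (x ^ n ∓ 1) = 2 (y ^ k ∓ 1)` modulo `N`, `n = 2 (a + 2) + 1`, `k = b + 20` -/
def modChk (N x y c a b : ℕ) : Bool :=
  (c * (x * (x ^ 2) ^ (2 + a)) + 2) % N != (2 * y ^ (20 + b) + c) % N &&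
  (c * (x * (x ^ 2) ^ (2 + a))) % N != (2 * y ^ (20 + b) + 2 + c) % N &&
  (c * (x * (x ^ 2) ^ (2 + a)) + c + 2) % N != (2 * y ^ (20 + b)) % N &&
  (c * (x * (x ^ 2) ^ (2 + a)) + c) % N != (2 * y ^ (20 + b) + 2) % N

theorem mod_kill {N x y e1 e2 c : ℕ} (he1 : 0 < e1) (he2 : 0 < e2) (hx : (x ^ 2) ^ (2 + e1) % N = (x ^ 2) ^ 2 % N)
    (hy : y ^ (20 + e2) % N = y ^ 20 % N)
    (hchk : (List.range e1).all (fun a => (List.range e2).all fun b => modChk N x y c a b) = true)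
    {n k P : ℕ} (hn : 5 ≤ n) (hodd : n % 2 = 1) (hk : 20 ≤ k) (h1 : c * P + 1 = y ^ k ∨ c * P = y ^ k + 1)
    (h2 : x ^ n = 2 * P + 1 ∨ x ^ n + 1 = 2 * P) : False := by
  obtain ⟨a, rfl⟩ : ∃ a, n = 2 * (2 + a) + 1 := ⟨(n - 5) / 2, by omega⟩
  obtain ⟨b, rfl⟩ : ∃ b, k = 20 + b := ⟨k - 20, by omega⟩
  have hX : x ^ (2 * (2 + a) + 1) = x * (x ^ 2) ^ (2 + a) := by rw [pow_succ, pow_mul, mul_comm]
  have hXm : (x * (x ^ 2) ^ (2 + a)) % N = (x * (x ^ 2) ^ (2 + a % e1)) % N := by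
    rw [Nat.mul_mod, cycle he1 hx a, ← Nat.mul_mod]
  have hYm : (y ^ (20 + b)) % N = (y ^ (20 + b % e2)) % N := cycle he2 hy b
  rw [List.all_eq_true] at hchk
  have h3 := hchk (a % e1) (List.mem_range.2 (Nat.mod_lt _ he1))
  rw [List.all_eq_true] at h3
  have h4 := h3 (b % e2) (List.mem_range.2 (Nat.mod_lt _ he2))
  rw [hX] at h2
  set X := x * (x ^ 2) ^ (2 + a) with hXd
  set Y := y ^ (20 + b) with hYd
  simp only [modChk, Bool.and_eq_true, bne_iff_ne, ne_eq] at h4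
  obtain ⟨⟨⟨g1, g2⟩, g3⟩, g4⟩ := h4
  have eX : ∀ A B : ℕ, (A * X + B) % N = (A * (x * (x ^ 2) ^ (2 + a % e1)) + B) % N := by
    intro A B
    rw [Nat.add_mod, Nat.mul_mod, hXm, ← Nat.mul_mod, ← Nat.add_mod]
  have eY : ∀ A B : ℕ, (A * Y + B) % N = (A * y ^ (20 + b % e2) + B) % N := by
    intro A B
    rw [Nat.add_mod, Nat.mul_mod, hYm, ← Nat.mul_mod, ← Nat.add_mod]
  have e2' := eX c 0
  have e3 := eX c (c + 2)
  have e4 := eX c c
  have f1 := eY 2 c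
  have f2 := eY 2 (2 + c)
  have f3 := eY 2 0
  have f4 := eY 2 2
  rw [add_zero, add_zero] at e2' f3
  rw [← add_assoc, ← add_assoc] at e3 f2
  rcases h1 with h1 | h1 <;> rcases h2 with h2 | h2
  · apply g1
    rw [← eX, ← eY, h2]
    congr 1
    linarith
  · apply g3
    rw [← e3, ← f3]
    congr 1
    have h5 : c * X + c = c * (X + 1) := by ring
    rw [h5, h2, ← h1]
    ring
  · apply g2
    rw [← e2', ← f2, h2]
    congr 1
    linarith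
  · apply g4
    rw [← e4, ← f4]
    congr 1
    have h5 : c * X + c = c * (X + 1) := by ring
    rw [h5, h2]
    linarith

/-- `q = 3`, `u = 2` -/
theorem mod_three {c n k P : ℕ} (hc : c = 1 ∨ c = 3 ∨ c = 9) (hn : 5 ≤ n) (hodd : n % 2 = 1) (hk : 20 ≤ k)
    (h1 : c * P + 1 = 2 ^ k ∨ c * P = 2 ^ k + 1) (h2 : 3 ^ n = 2 * P + 1 ∨ 3 ^ n + 1 = 2 * P) : False := by
  rcases hc with rfl | rfl | rfl <;>
  exact mod_kill (N := 8160) (x := 3) (y := 2) (e1 := 8) (e2 := 8) (by norm_num) (by norm_num) (by norm_num) (by norm_num)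
    (by decide +kernel) hn hodd hk h1 h2

/-- `q = 5`, `u = 3` -/
theorem mod_five {c n k P : ℕ} (hc : c = 1 ∨ c = 2 ∨ c = 4 ∨ c = 8 ∨ c = 16) (hn : 5 ≤ n) (hodd : n % 2 = 1)
    (hk : 20 ≤ k) (h1 : c * P + 1 = 3 ^ k ∨ c * P = 3 ^ k + 1) (h2 : 5 ^ n = 2 * P + 1 ∨ 5 ^ n + 1 = 2 * P) : False := by
  rcases hc with rfl | rfl | rfl | rfl | rfl <;>
  exact mod_kill (N := 27972) (x := 5) (y := 3) (e1 := 18) (e2 := 36) (by norm_num) (by norm_num) (by norm_num)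
    (by norm_num) (by decide +kernel) hn hodd hk h1 h2

theorem exp_lt {b x n m k : ℕ} (hb : 2 ≤ b) {a c : ℕ} (h1 : b ^ a < x ^ c) (h2 : x ^ n ≤ b ^ m) (hn : 1 ≤ n) :
    a * n < c * m := by
  have h3 : b ^ (a * n) < b ^ (c * m) := by
    calc b ^ (a * n) = (b ^ a) ^ n := pow_mul _ _ _
      _ < (x ^ c) ^ n := Nat.pow_lt_pow_left h1 (by omega)
      _ = (x ^ n) ^ c := by rw [← pow_mul, ← pow_mul, mul_comm]
      _ ≤ (b ^ m) ^ c := Nat.pow_le_pow_left h2 c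
      _ = _ := by rw [← pow_mul, mul_comm]
  exact (Nat.pow_lt_pow_iff_right (by omega)).1 h3

/-- `u = 2`, symplectic and orthogonal -/
theorem num_two {q n m k : ℕ} (hq : 3 ≤ q) (hn : 5 ≤ n) (hm : 64 ≤ m) (h1 : q ^ n ≤ 2 ^ (m + 3)) (h2 : 32 ^ k < q ^ 3)
    (h3 : 3 * m ≤ 3 * n + 4 * k + 15) : False := by
  have e1 : (5 * k) * n < 3 * (m + 3) :=
    exp_lt (k := 0) le_rfl (x := q) (by rw [pow_mul]; norm_num; exact h2) h1 (by omega)
  have e2 : 19 * n < 12 * (m + 3) :=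
    exp_lt (k := 0) le_rfl (x := q) (lt_of_lt_of_le (by norm_num) (Nat.pow_le_pow_left hq 12)) h1 (by omega)
  obtain ⟨d, hd⟩ : ∃ d, n = 5 + d := ⟨n - 5, by omega⟩
  obtain ⟨e, he⟩ : ∃ e, 12 * (m + 3) = 19 * n + e := ⟨12 * (m + 3) - 19 * n, by omega⟩
  have h4 : 5 * n * (3 * m) ≤ 5 * n * (3 * n + 4 * k + 15) := Nat.mul_le_mul_left _ h3
  zify at *
  nlinarith [mul_nonneg (Int.natCast_nonneg d) (Int.natCast_nonneg e), mul_nonneg (Int.natCast_nonneg n) (Int.natCast_nonneg d)]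

/-- `u = 3`, symplectic and orthogonal -/
theorem num_three {q n m k : ℕ} (hq : 5 ≤ q) (hn : 5 ≤ n) (hm : 64 ≤ m) (h1 : q ^ n ≤ 3 ^ (m + 4)) (h2 : 27 ^ k < q ^ 3)
    (h3 : 3 * m ≤ 3 * n + 4 * k + 15) : False := by
  have h2' : 3 ^ k < q ^ 1 := by
    rw [pow_one]
    apply lt_of_pow_lt_pow_left₀ 3 (Nat.zero_le _)
    rw [← pow_mul, mul_comm, pow_mul]
    exact h2
  have e1 : k * n < 1 * (m + 4) := exp_lt (k := 0) (by norm_num) (x := q) h2' h1 (by omega)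
  have e2 : 19 * n < 13 * (m + 4) :=
    exp_lt (k := 0) (by norm_num) (x := q) (lt_of_lt_of_le (by norm_num) (Nat.pow_le_pow_left hq 13)) h1 (by omega)
  obtain ⟨d, hd⟩ : ∃ d, n = 5 + d := ⟨n - 5, by omega⟩
  obtain ⟨e, he⟩ : ∃ e, 13 * (m + 4) = 19 * n + e := ⟨13 * (m + 4) - 19 * n, by omega⟩
  have h4 : n * (3 * m) ≤ n * (3 * n + 4 * k + 15) := Nat.mul_le_mul_left _ h3
  zify at *
  nlinarith [mul_nonneg (Int.natCast_nonneg d) (Int.natCast_nonneg e), mul_nonneg (Int.natCast_nonneg n) (Int.natCast_nonneg d)]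

/-- `u = 2`, linear and unitary, `q ≥ 5` -/
theorem num_lin_two {q n m k : ℕ} (hq : 5 ≤ q) (hn : 5 ≤ n) (hm : 64 ≤ m) (h1 : q ^ n ≤ 2 ^ (m + 2)) (h2 : 32 ^ k < q ^ 3)
    (h3 : 2 * m ≤ 3 * n + 4 * k + 9) : False := by
  have e1 : (5 * k) * n < 3 * (m + 2) :=
    exp_lt (k := 0) le_rfl (x := q) (by rw [pow_mul]; norm_num; exact h2) h1 (by omega)
  have e2 : 9 * n < 4 * (m + 2) :=
    exp_lt (k := 0) le_rfl (x := q) (lt_of_lt_of_le (by norm_num) (Nat.pow_le_pow_left hq 4)) h1 (by omega)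
  obtain ⟨d, hd⟩ : ∃ d, n = 5 + d := ⟨n - 5, by omega⟩
  obtain ⟨e, he⟩ : ∃ e, 4 * (m + 2) = 9 * n + e := ⟨4 * (m + 2) - 9 * n, by omega⟩
  have h4 : 5 * n * (2 * m) ≤ 5 * n * (3 * n + 4 * k + 9) := Nat.mul_le_mul_left _ h3
  zify at *
  nlinarith [mul_nonneg (Int.natCast_nonneg d) (Int.natCast_nonneg e), mul_nonneg (Int.natCast_nonneg n) (Int.natCast_nonneg d)]

/-- `u = 3`, linear and unitary, `q ≥ 7` -/
theorem num_lin_three {q n m k : ℕ} (hq : 7 ≤ q) (hn : 5 ≤ n) (hm : 64 ≤ m) (h1 : q ^ n ≤ 3 ^ m) (h2 : 27 ^ k < q ^ 3)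
    (h3 : 2 * m ≤ 3 * n + 4 * k + 9) : False := by
  have h2' : 3 ^ k < q ^ 1 := by
    rw [pow_one]
    apply lt_of_pow_lt_pow_left₀ 3 (Nat.zero_le _)
    rw [← pow_mul, mul_comm, pow_mul]
    exact h2
  have e1 : k * n < 1 * m := exp_lt (k := 0) (by norm_num) (x := q) h2' h1 (by omega)
  have e2 : 23 * n < 13 * m :=
    exp_lt (k := 0) (by norm_num) (x := q) (lt_of_lt_of_le (by norm_num) (Nat.pow_le_pow_left hq 13)) h1 (by omega)
  obtain ⟨d, hd⟩ : ∃ d, n = 5 + d := ⟨n - 5, by omega⟩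
  obtain ⟨e, he⟩ : ∃ e, 13 * m = 23 * n + e := ⟨13 * m - 23 * n, by omega⟩
  obtain ⟨g, hg⟩ : ∃ g, m = 64 + g := ⟨m - 64, by omega⟩
  have h4 : n * (2 * m) ≤ n * (3 * n + 4 * k + 9) := Nat.mul_le_mul_left _ h3
  zify at *
  nlinarith [mul_nonneg (Int.natCast_nonneg d) (Int.natCast_nonneg e), mul_nonneg (Int.natCast_nonneg n) (Int.natCast_nonneg d),
    mul_nonneg (Int.natCast_nonneg g) (Int.natCast_nonneg e), mul_nonneg (Int.natCast_nonneg g) (Int.natCast_nonneg n)]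

end Cfsg.Agent.R2.Spec.SmallU
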